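import Cfsg.Agent.H56.Exc.Big
import Cfsg.Agent.H904.SylOne
import Cfsg.Agent.H436.Names

/-!
# Arithmetic for almost simple groups with a big prime (helper420)

`kill` : a simple group `S` with `Big S p N 6`, `p` dividing `|S|` exactly once, and an element `x` of order `N`, `p ∣ N`:
`|S| = N e s` with `e ∣ p - 1`, `e ∣ 6`, `e ≠ 1` (Burnside), `s ≡ 1` modulo `p`.
-/

set_option autoImplicit false

namespace Cfsg.Agent.H420.G2U

open Subgroup Cfsg.Agent.H56.Exc

universe u

/-- if `N(P) = C(P)` for a Sylow subgroup `P ≠ 1` of a simple group, the group is `P` -/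
theorem burnside {S : Type u} [Group S] [Finite S] [IsSimpleGroup S] {p : ℕ} [Fact p.Prime] (P : Sylow p S)
    (h1 : (P : Subgroup S) ≠ ⊥) (h2 : (P : Subgroup S) ≠ ⊤)
    (h : normalizer ((P : Subgroup S) : Set S) ≤ centralizer ((P : Subgroup S) : Set S)) : False := by
  have h3 := MonoidHom.ker_transferSylow_isComplement' P h
  rcases IsSimpleGroup.eq_bot_or_eq_top_of_normal (MonoidHom.transferSylow P h).ker inferInstance with h4 | h4
  · rw [h4] at h3
    exact h2 (isComplement'_bot_left.1 h3)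
  · rw [h4] at h3
    exact h1 (isComplement'_top_left.1 h3)

/-- **The arithmetic of a big prime.** -/
theorem arith {S : Type u} [Group S] [Finite S] [IsSimpleGroup S] {p N m : ℕ} (hb : Big S p N 6)
    (hp2 : ¬ p ^ 2 ∣ Nat.card S) (hpS : Nat.card S ≠ p) {x : S} (hx : orderOf x = m) (hpm : p ∣ m) (hm : m ≠ 0) :
    ∃ c e s, e ∣ p - 1 ∧ e ≠ 1 ∧ c ∣ N ∧ m ∣ c ∧ c * e ∣ 6 * N ∧ Nat.card S = c * e * s ∧ s % p = 1 := by
  have hp := hb.prime
  have := Fact.mk hp
  set y : S := x ^ (m / p) with hy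
  have hyo : orderOf y = p := by
    rw [hy, orderOf_pow_of_dvd (Nat.div_pos (Nat.le_of_dvd (Nat.pos_of_ne_zero hm) hpm) hp.pos).ne'
      (by rw [hx]; exact Nat.div_dvd_of_dvd hpm), hx, Nat.div_div_self hpm hm]
  obtain ⟨K, e, s, he, hK, hs, hmod, hP⟩ := H904.SylOne.main hp2 hyo
  have hZ : Nat.card (zpowers y) = p := by rw [Nat.card_zpowers, hyo]
  obtain ⟨hC, hN⟩ := hP (zpowers y) hZ
  have hs1 : s % p = 1 := by
    have h1 : s % p = 1 % p := hmod
    rwa [Nat.mod_eq_of_lt hp.one_lt] at h1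
  refine ⟨p * K, e, s, he, ?_, ?_, ?_, ?_, hs, hs1⟩
  · rintro rfl
    obtain ⟨P, hPZ⟩ := H904.SylOne.exists_sylow hZ hp2
    refine burnside P ?_ ?_ ?_
    · intro h
      rw [h] at hPZ
      rw [← hPZ, Subgroup.card_bot] at hZ
      exact hp.one_lt.ne hZ
    · intro h
      rw [h] at hPZ
      rw [← hPZ, Subgroup.card_top] at hZ
      exact hpS hZ
    · rw [hPZ]
      have h1 : centralizer ((zpowers y : Subgroup S) : Set S) ≤ normalizer ((zpowers y : Subgroup S) : Set S) :=
        Subgroup.centralizer_le_normalizer _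
      have h2 := Subgroup.eq_of_le_of_card_ge h1 (by rw [hN, hC, mul_one])
      exact h2.ge
  · rw [← hK]
    exact hb.card y hyo
  · rw [← hK, ← hx]
    have h1 : x ∈ centralizer ({y} : Set S) := by
      rw [mem_centralizer_singleton_iff, hy]
      exact ((Commute.refl x).pow_right _).eq
    rw [← Subgroup.orderOf_mk x h1]
    exact orderOf_dvd_natCard _
  · rw [← hN]
    exact hb.card_normalizer_dvd hyo

/-- elements of order prime to the index -/
theorem mem_of_coprime {G : Type*} [Group G] [Finite G] {S : Subgroup G} [S.Normal] {x : G}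
    (h : Nat.Coprime (orderOf x) S.index) : x ∈ S := by
  rw [← QuotientGroup.eq_one_iff]
  have h1 : orderOf (x : G ⧸ S) ∣ orderOf x := orderOf_map_dvd (QuotientGroup.mk' S) x
  have h2 : orderOf (x : G ⧸ S) ∣ S.index := by
    rw [Subgroup.index_eq_card]
    exact orderOf_dvd_natCard _
  have h3 : orderOf (x : G ⧸ S) ∣ 1 := by
    rw [← h]
    exact Nat.dvd_gcd h1 h2
  exact orderOf_eq_one_iff.1 (Nat.dvd_one.1 h3)

/-- the index of the socle -/
theorem index_dvd {R : Type*} [Group R] [Finite R] (S : Subgroup R) [S.Normal]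
    (hC : Subgroup.centralizer (S : Set R) = ⊥) {k : ℕ} (hk : Nat.card (MulAut S) = k * Nat.card S) :
    S.index ∣ k := by
  have hinj : Function.Injective (MulAut.conjNormal : R →* MulAut S) := by
    rw [← MonoidHom.ker_eq_bot_iff, eq_bot_iff]
    intro x hx
    rw [← hC, Subgroup.mem_centralizer_iff]
    intro y hy
    have h1 := DFunLike.congr_fun ((MonoidHom.mem_ker).1 hx) ⟨y, hy⟩
    have h2 := congrArg Subtype.val h1
    rw [MulAut.conjNormal_apply, MulAut.one_apply] at h2
    exact (mul_inv_eq_iff_eq_mul.1 h2).symm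
  have h1 := Subgroup.card_dvd_of_injective _ hinj
  rw [hk, ← S.index_mul_card] at h1
  exact Nat.dvd_of_mul_dvd_mul_right Nat.card_pos h1

/-- the numerical condition -/
def chk (C N m p : ℕ) : Bool :=
  (List.range (N + 1)).all fun c => (List.range p).all fun e =>
    ! (decide (c ∣ N) && decide (m ∣ c) && decide (e ∣ p - 1) && decide (e ≠ 1) && decide (c * e ∣ 6 * N) &&
      decide (c * e ∣ C) && decide (C / (c * e) % p = 1))

theorem chk_false {C N m p c e s : ℕ} (h : chk C N m p = true) (hp : 2 ≤ p) (hN : N ≠ 0) (hC : C ≠ 0)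
    (he : e ∣ p - 1) (he1 : e ≠ 1) (hc : c ∣ N) (hm : m ∣ c) (h6 : c * e ∣ 6 * N) (hs : C = c * e * s)
    (hs1 : s % p = 1) : False := by
  unfold chk at h
  rw [List.all_eq_true] at h
  have hcN : c ≤ N := Nat.le_of_dvd (Nat.pos_of_ne_zero hN) hc
  have hep : e ≤ p - 1 := Nat.le_of_dvd (by omega) he
  have h1 := h c (by rw [List.mem_range]; omega)
  rw [List.all_eq_true] at h1
  have h2 := h1 e (by rw [List.mem_range]; omega)
  have hce : c * e ≠ 0 := by
    rintro h0
    rw [h0, zero_mul] at hs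
    exact hC hs
  have h3 : C / (c * e) = s := by
    rw [hs]
    exact Nat.mul_div_cancel_left s (Nat.pos_of_ne_zero hce)
  have h4 : c * e ∣ C := ⟨s, hs⟩
  simp [hc, hm, he, he1, h6, h4, h3, hs1] at h2

/-- **The numerical kill.** -/
theorem kill {S : Type u} [Group S] [Finite S] [IsSimpleGroup S] {p N m C : ℕ} (hb : Big S p N 6)
    (hC : Nat.card S = C) (hN : N ≠ 0) {x : S} (hx : orderOf x = m)
    (h : (!decide (p ^ 2 ∣ C) && decide (C ≠ p) && decide (p ∣ m) && decide (m ≠ 0) && chk C N m p) = true) :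
    False := by
  rw [Bool.and_eq_true, Bool.and_eq_true, Bool.and_eq_true, Bool.and_eq_true, Bool.not_eq_true',
    decide_eq_false_iff_not, decide_eq_true_iff, decide_eq_true_iff, decide_eq_true_iff] at h
  obtain ⟨⟨⟨⟨h1, h2⟩, h3⟩, h4⟩, h5⟩ := h
  obtain ⟨c, e, s, he, he1, hc, hm, h6, hs, hs1⟩ := arith hb (by rw [hC]; exact h1) (by rw [hC]; exact h2) hx h3 h4
  rw [hC] at hs
  exact chk_false h5 hb.prime.two_le hN (by rw [← hC]; exact Nat.card_pos.ne') he he1 hc hm h6 hs hs1

end Cfsg.Agent.H420.G2U
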